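import Cfsg.Agent.R2.Spec.X1.TI.Eq

/-!
# Identification of `³D₄(q)`: the last step for the classical groups (helper134, statement S3478)

`n = mm q`, `Par p q`, `a ∈ Om`:
* `dead_lin` : `d n (u - 1) + 1 = u ^ k`, `d a + 1 = u ^ (k - 1)`, `u ≥ 4`, `k ≥ 3` : impossible (`PSL`);
* `dead_uni` : `d n (u + 1) = u ^ k + 1`, `d a + 1 = u ^ (k - 1)`, `k ≥ 3` odd : impossible (`PSU`);
* `dead_plus`, `dead_minus` : the same with `d = 1` and `c a + 1 = u ^ (k - 1)`, `c = 1, 2` (symplectic, orthogonal groups);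
  in `dead_minus` one solution `u = q²` is left;
* `exists_prime_sq`, `not_om_sq` : an odd prime divisor of `q² + 1` is not in `Om`.
-/

set_option autoImplicit false

namespace Cfsg.Agent.R2.Spec.X1.TI

open Cfsg.Agent.R2.Spec.X1.TD

theorem exists_geom (x m : ℕ) : ∃ P : ℕ, x * P + 1 = (x + 1) ^ m := by
  induction m with
  | zero => exact ⟨0, by simp⟩
  | succ m ih =>
    obtain ⟨P, hP⟩ := ih
    exact ⟨(x + 1) * P + 1, by rw [pow_succ, ← hP]; ring⟩

theorem exists_geom_alt {u : ℕ} (hu : 1 ≤ u) (j : ℕ) : ∃ R : ℕ, (u + 1) * R + 1 = u ^ (2 * j) := by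
  obtain ⟨t, rfl⟩ : ∃ t, u = t + 1 := ⟨u - 1, by omega⟩
  induction j with
  | zero => exact ⟨0, by simp⟩
  | succ j ih =>
    obtain ⟨R, hR⟩ := ih
    exact ⟨(t + 1) ^ 2 * R + t, by rw [Nat.mul_succ, pow_add, ← hR]; ring⟩

/-- the core of `dead_lin` -/
theorem core_lin {Q D U : ℤ} (hQ : 3 ≤ Q) (hD : 1 ≤ D)
    (e : D * (Q ^ 4 - Q ^ 2 + 1) = U * (D * (Q ^ 3 - Q ^ 2 - Q + 2) - 1) + 1) : False := by
  have q2 : 3 * Q ≤ Q ^ 2 := by nlinarith
  have q3 : 3 * Q ^ 2 ≤ Q ^ 3 := by nlinarith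
  have hG : 1 ≤ Q ^ 3 - Q ^ 2 - Q + 2 := by linarith
  have hDG : 0 ≤ D * (Q ^ 3 - Q ^ 2 - Q + 2) - 1 := by nlinarith
  rcases lt_or_ge Q U with h12 | h12
  · rcases lt_or_ge (Q + 1) U with h13 | h13
    · rcases lt_or_ge (Q + 2) U with h14 | h14
      · have h15 : (Q + 3) * (D * (Q ^ 3 - Q ^ 2 - Q + 2) - 1) ≤ U * (D * (Q ^ 3 - Q ^ 2 - Q + 2) - 1) :=
          mul_le_mul_of_nonneg_right (by linarith) hDG
        have h17 : 1 * (2 * Q ^ 3 - 3 * Q ^ 2 - Q + 5) ≤ D * (2 * Q ^ 3 - 3 * Q ^ 2 - Q + 5) :=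
          mul_le_mul_of_nonneg_right hD (by linarith)
        linarith
      · have h15 : U = Q + 2 := by linarith
        rw [h15] at e
        have h17 : 1 * (Q ^ 3 - 2 * Q ^ 2 + 3) ≤ D * (Q ^ 3 - 2 * Q ^ 2 + 3) :=
          mul_le_mul_of_nonneg_right hD (by linarith)
        linarith
    · have h15 : U = Q + 1 := by linarith
      rw [h15] at e
      have h17 : 1 * (Q ^ 2 - Q - 1) ≤ D * (Q ^ 2 - Q - 1) := mul_le_mul_of_nonneg_right hD (by linarith)
      linarith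
  · have h15 : U * (D * (Q ^ 3 - Q ^ 2 - Q + 2) - 1) ≤ Q * (D * (Q ^ 3 - Q ^ 2 - Q + 2) - 1) :=
      mul_le_mul_of_nonneg_right h12 hDG
    have h17 : 1 * (Q ^ 3 - 2 * Q + 1) ≤ D * (Q ^ 3 - 2 * Q + 1) := mul_le_mul_of_nonneg_right hD (by linarith)
    linarith

/-- the core of `dead_uni` -/
theorem core_uni {Q D U : ℤ} (hQ : 3 ≤ Q) (hD : 1 ≤ D)
    (e : D * (Q ^ 4 - Q ^ 2 + 1) = U * (D * (Q ^ 3 + Q ^ 2 - Q - 2) + 1) + 1) : False := by
  have q2 : 3 * Q ≤ Q ^ 2 := by nlinarith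
  have q3 : 3 * Q ^ 2 ≤ Q ^ 3 := by nlinarith
  have hH : 1 ≤ Q ^ 3 + Q ^ 2 - Q - 2 := by linarith
  have hDH : 0 ≤ D * (Q ^ 3 + Q ^ 2 - Q - 2) + 1 := by nlinarith
  rcases lt_or_ge (Q - 1) U with h12 | h12
  · have h15 : Q * (D * (Q ^ 3 + Q ^ 2 - Q - 2) + 1) ≤ U * (D * (Q ^ 3 + Q ^ 2 - Q - 2) + 1) :=
      mul_le_mul_of_nonneg_right (by linarith) hDH
    have h17 : 1 * (Q ^ 3 - 2 * Q - 1) ≤ D * (Q ^ 3 - 2 * Q - 1) := mul_le_mul_of_nonneg_right hD (by linarith)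
    linarith
  · have h15 : U * (D * (Q ^ 3 + Q ^ 2 - Q - 2) + 1) ≤ (Q - 1) * (D * (Q ^ 3 + Q ^ 2 - Q - 2) + 1) :=
      mul_le_mul_of_nonneg_right h12 hDH
    have h17 : 1 * (Q ^ 2 + Q - 1) ≤ D * (Q ^ 2 + Q - 1) := mul_le_mul_of_nonneg_right hD (by linarith)
    linarith

/-- `a = Q⁴ - Q` -/
theorem core_uni_sub {Q D U : ℤ} (hQ : 5 ≤ Q) (hD : 1 ≤ D)
    (e : D * (Q ^ 4 - Q ^ 2 + 1) = U * (D * (Q ^ 2 - Q - 1) + 1) + 1) : D = 1 ∧ U = Q * (Q + 1) := by
  have q2 : 5 * Q ≤ Q ^ 2 := by nlinarith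
  have hG : 0 < D * (Q ^ 2 - Q - 1) + 1 := by nlinarith
  have e1 : (U - (Q ^ 2 + Q + 1)) * (D * (Q ^ 2 - Q - 1) + 1) = D * (2 * Q + 2) - (Q ^ 2 + Q + 2) := by
    linear_combination -e
  rcases lt_trichotomy (U - (Q ^ 2 + Q + 1)) (-1) with h1 | h1 | h1
  · exfalso
    have h2 : (U - (Q ^ 2 + Q + 1)) * (D * (Q ^ 2 - Q - 1) + 1) ≤ (-2) * (D * (Q ^ 2 - Q - 1) + 1) :=
      mul_le_mul_of_nonneg_right (by linarith) hG.le
    rw [e1] at h2
    have h3 : 1 * (2 * Q ^ 2) ≤ D * (2 * Q ^ 2) := mul_le_mul_of_nonneg_right hD (by positivity)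
    nlinarith
  · rw [h1] at e1
    -- `D (Q² + Q + 1) = Q² + Q + 1`
    have h2 : (D - 1) * (Q ^ 2 + Q + 1) = 0 := by linear_combination -e1
    rcases mul_eq_zero.1 h2 with h3 | h3
    · exact ⟨by linarith, by linear_combination h1⟩
    · exfalso; nlinarith
  · exfalso
    rcases lt_or_ge (U - (Q ^ 2 + Q + 1)) 1 with h2 | h2
    · have h3 : U - (Q ^ 2 + Q + 1) = 0 := by linarith
      rw [h3, zero_mul] at e1
      -- `2 D (Q + 1) = Q (Q + 1) + 2`
      have h4 : (Q + 1) ∣ 2 := ⟨2 * D - Q, by linear_combination e1⟩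
      have := Int.le_of_dvd (by norm_num) h4
      linarith
    · have h3 : 1 * (D * (Q ^ 2 - Q - 1) + 1) ≤ (U - (Q ^ 2 + Q + 1)) * (D * (Q ^ 2 - Q - 1) + 1) :=
        mul_le_mul_of_nonneg_right h2 hG.le
      rw [e1] at h3
      have h4 : 0 ≤ D * (Q ^ 2 - 3 * Q - 3) := mul_nonneg (by linarith) (by nlinarith)
      nlinarith

/-- `a = Q⁴ + Q` -/
theorem core_uni_add {Q D U : ℤ} (hQ : 5 ≤ Q) (hD : 1 ≤ D)
    (e : D * (Q ^ 4 - Q ^ 2 + 1) = U * (D * (Q ^ 2 + Q - 1) + 1) + 1) : D = 1 ∧ U = Q * (Q - 1) := by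
  have q2 : 5 * Q ≤ Q ^ 2 := by nlinarith
  have hG : 0 < D * (Q ^ 2 + Q - 1) + 1 := by nlinarith
  have e1 : (Q ^ 2 - Q + 1 - U) * (D * (Q ^ 2 + Q - 1) + 1) = D * (2 * Q - 2) + (Q ^ 2 - Q + 2) := by
    linear_combination e
  have h0 : 0 < (Q ^ 2 - Q + 1 - U) * (D * (Q ^ 2 + Q - 1) + 1) := by
    rw [e1]
    have : 0 ≤ D * (2 * Q - 2) := mul_nonneg (by linarith) (by linarith)
    nlinarith
  have h1 : 0 < Q ^ 2 - Q + 1 - U := by
    by_contra hc
    have := mul_nonpos_of_nonpos_of_nonneg (not_lt.1 hc) hG.le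
    linarith
  rcases lt_or_ge (Q ^ 2 - Q + 1 - U) 2 with h2 | h2
  · have h3 : Q ^ 2 - Q + 1 - U = 1 := by linarith
    rw [h3, one_mul] at e1
    have h4 : (D - 1) * (Q ^ 2 - Q + 1) = 0 := by linear_combination e1
    rcases mul_eq_zero.1 h4 with h5 | h5
    · exact ⟨by linarith, by linear_combination -h3⟩
    · exfalso; nlinarith
  · exfalso
    have h3 : 2 * (D * (Q ^ 2 + Q - 1) + 1) ≤ (Q ^ 2 - Q + 1 - U) * (D * (Q ^ 2 + Q - 1) + 1) :=
      mul_le_mul_of_nonneg_right h2 hG.le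
    rw [e1] at h3
    have h4 : 1 * (2 * Q ^ 2) ≤ D * (2 * Q ^ 2) := mul_le_mul_of_nonneg_right hD (by positivity)
    nlinarith

/-- a product of two consecutive numbers greater than 1 is not a prime power -/
theorem not_pp_mul_succ {a : ℕ} (ha : 2 ≤ a) : ¬ IsPrimePow (a * (a + 1)) := by
  intro h
  have hco : Nat.Coprime a (a + 1) := by simp
  rcases (Nat.Coprime.isPrimePow_dvd_mul hco h).1 dvd_rfl with h1 | h1
  · have := Nat.le_of_dvd (by omega) h1
    nlinarith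
  · have := Nat.le_of_dvd (by omega) h1
    nlinarith

variable {p q : ℕ} (h : Par p q)

include h

/-- **`PSL`** -/
theorem dead_lin {u k d a : ℕ} (hu : 4 ≤ u) (hk : 3 ≤ k) (hd : 1 ≤ d) (h1 : d * mm q * (u - 1) + 1 = u ^ k)
    (h2 : d * a + 1 = u ^ (k - 1)) (ho : Om p q a) : False := by
  have hq := h.hq
  obtain ⟨x, rfl⟩ : ∃ x, u = x + 1 := ⟨u - 1, by omega⟩
  rw [Nat.add_sub_cancel] at h1
  obtain ⟨P, hP⟩ := exists_geom x (k - 1)
  have h3 : d * a = x * P := by omega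
  have h4 : d * mm q = (x + 1) * P + 1 := by
    have h5 : (x + 1) ^ k = (x + 1) * (x + 1) ^ (k - 1) := by
      rw [← pow_succ', Nat.sub_add_cancel (by omega)]
    rw [h5, ← hP] at h1
    have h6 : x * (d * mm q) = x * ((x + 1) * P + 1) := by nlinarith
    exact Nat.eq_of_mul_eq_mul_left (by omega) h6
  have hP5 : x + 2 ≤ P := by
    have h5 : (x + 1) ^ 2 ≤ (x + 1) ^ (k - 1) := Nat.pow_le_pow_right (by omega) (by omega)
    rw [← hP] at h5
    by_contra hcon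
    push Not at hcon
    have : x * P ≤ x * (x + 1) := Nat.mul_le_mul_left _ (by omega)
    nlinarith
  have h7 : 5 * mm q ≤ 7 * a := by
    by_contra hcon
    push Not at hcon
    have h8 : d * (7 * a) < d * (5 * mm q) := Nat.mul_lt_mul_of_pos_left hcon (by omega)
    have h9 : 3 * P ≤ x * P := Nat.mul_le_mul_right _ (by omega)
    nlinarith
  have hlt : a < mm q := by
    by_contra hcon
    push Not at hcon
    have : d * mm q ≤ d * a := Nat.mul_le_mul_left _ hcon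
    nlinarith
  rcases Om.large h ho h7 with h8 | h8 | h8 | h8 | h8
  · omega
  · -- `a = (q³ - 1)(q + 1) > n`
    have hn := mm_cast hq
    have h10 : (a : ℤ) = ((q : ℤ) ^ 3 - 1) * (q + 1) := by
      rw [h8]
      have : 1 ≤ q ^ 3 := Nat.one_le_pow _ _ (by omega)
      push_cast [Nat.cast_sub this]
      ring
    have h11 : (a : ℤ) < mm q := by exact_mod_cast hlt
    have hq3 : (3 : ℤ) ≤ q := by exact_mod_cast hq
    rw [h10, hn] at h11
    nlinarith [mul_pos (show (0 : ℤ) < q by linarith) (show (0 : ℤ) < q by linarith)]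
  · -- `a = (q³ + 1)(q - 1)`
    have hn := mm_cast hq
    have h10 : (a : ℤ) = ((q : ℤ) ^ 3 + 1) * (q - 1) := by
      rw [h8]
      have : 1 ≤ q := by omega
      push_cast [Nat.cast_sub this]
      ring
    have hq3 : (3 : ℤ) ≤ q := by exact_mod_cast hq
    have e3 : (d : ℤ) * a = x * P := by exact_mod_cast h3
    have e4 : (d : ℤ) * mm q = (x + 1) * P + 1 := by exact_mod_cast h4
    have hd1 : (1 : ℤ) ≤ d := by exact_mod_cast hd
    set Q : ℤ := (q : ℤ) with hQ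
    set D : ℤ := (d : ℤ) with hD
    set U : ℤ := (x : ℤ) + 1 with hU
    -- `P = D G - 1`
    have e5 : (P : ℤ) = D * (Q ^ 3 - Q ^ 2 - Q + 2) - 1 := by
      have : D * ((mm q : ℕ) : ℤ) - D * a = P + 1 := by rw [e4, e3, hU]; ring
      rw [hn, h10] at this
      linear_combination -this
    have e6 : D * (Q ^ 4 - Q ^ 2 + 1) = U * (D * (Q ^ 3 - Q ^ 2 - Q + 2) - 1) + 1 := by
      rw [← e5, ← hn, e4]
    exact core_lin hq3 hd1 e6
  · -- `a = q (q³ - 1) > n`
    have hn := mm_cast hq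
    have h10 : (a : ℤ) = (q : ℤ) * ((q : ℤ) ^ 3 - 1) := by
      rw [h8]
      have : 1 ≤ q ^ 3 := Nat.one_le_pow _ _ (by omega)
      push_cast [Nat.cast_sub this]
      ring
    have h11 : (a : ℤ) < mm q := by exact_mod_cast hlt
    have hq3 : (3 : ℤ) ≤ q := by exact_mod_cast hq
    rw [h10, hn] at h11
    nlinarith [mul_pos (show (0 : ℤ) < q by linarith) (show (0 : ℤ) < q by linarith)]
  · have hn := mm_cast hq
    have h10 : (a : ℤ) = (q : ℤ) * ((q : ℤ) ^ 3 + 1) := by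
      rw [h8]
      push_cast
      ring
    have h11 : (a : ℤ) < mm q := by exact_mod_cast hlt
    have hq3 : (3 : ℤ) ≤ q := by exact_mod_cast hq
    rw [h10, hn] at h11
    nlinarith [mul_pos (show (0 : ℤ) < q by linarith) (show (0 : ℤ) < q by linarith)]

/-- **`PSU`** -/
theorem dead_uni {u k d a : ℕ} (hu : IsPrimePow u) (hk : 3 ≤ k) (hko : Odd k) (hd : 1 ≤ d)
    (h1 : d * mm q * (u + 1) = u ^ k + 1) (h2 : d * a + 1 = u ^ (k - 1)) (ho : Om p q a) : False := by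
  have hq := h.hq
  have hu2 := hu.two_le
  have h73 := mm_ge h
  obtain ⟨j, hj⟩ : ∃ j, k - 1 = 2 * j := by
    obtain ⟨j, hj⟩ := hko
    exact ⟨j, by omega⟩
  obtain ⟨R, hR⟩ := exists_geom_alt (u := u) (by omega) j
  rw [← hj] at hR
  have h3 : d * a = (u + 1) * R := by omega
  have h4 : d * mm q = u * R + 1 := by
    have h5 : u ^ k = u * u ^ (k - 1) := by
      rw [← pow_succ', Nat.sub_add_cancel (by omega)]
    rw [h5, ← hR] at h1
    have h6 : (u + 1) * (d * mm q) = (u + 1) * (u * R + 1) := by nlinarith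
    exact Nat.eq_of_mul_eq_mul_left (by omega) h6
  have hR2 : 2 ≤ R := by
    by_contra hcon
    have h5 : u ^ 2 ≤ u ^ (k - 1) := Nat.pow_le_pow_right (by omega) (by omega)
    rw [← hR] at h5
    have h6 : R ≤ 1 := by omega
    have h7 : (u + 1) * R ≤ (u + 1) * 1 := Nat.mul_le_mul_left _ h6
    have h8 : u ≤ 2 := by nlinarith
    have h9 : u * R ≤ 2 * 1 := Nat.mul_le_mul h8 h6
    nlinarith
  have hlt : mm q < a := by
    by_contra hcon
    push Not at hcon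
    have : d * a ≤ d * mm q := Nat.mul_le_mul_left _ hcon
    nlinarith
  rcases Om.large h ho (by omega) with h8 | h8 | h8 | h8 | h8
  · omega
  · have hn := mm_cast hq
    have h10 : (a : ℤ) = ((q : ℤ) ^ 3 - 1) * (q + 1) := by
      rw [h8]
      have : 1 ≤ q ^ 3 := Nat.one_le_pow _ _ (by omega)
      push_cast [Nat.cast_sub this]
      ring
    have hq3 : (3 : ℤ) ≤ q := by exact_mod_cast hq
    have e3 : (d : ℤ) * a = (u + 1) * R := by exact_mod_cast h3
    have e4 : (d : ℤ) * mm q = u * R + 1 := by exact_mod_cast h4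
    have hd1 : (1 : ℤ) ≤ d := by exact_mod_cast hd
    have e5 : (R : ℤ) = (d : ℤ) * ((q : ℤ) ^ 3 + (q : ℤ) ^ 2 - q - 2) + 1 := by
      have : (d : ℤ) * a - d * ((mm q : ℕ) : ℤ) = R - 1 := by rw [e4, e3]; ring
      rw [hn, h10] at this
      linear_combination -this
    refine core_uni (Q := (q : ℤ)) (D := (d : ℤ)) (U := (u : ℤ)) hq3 hd1 ?_
    rw [← e5, ← hn, e4]
  · have hn := mm_cast hq
    have h10 : (a : ℤ) = ((q : ℤ) ^ 3 + 1) * (q - 1) := by
      rw [h8]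
      have : 1 ≤ q := by omega
      push_cast [Nat.cast_sub this]
      ring
    have h11 : ((mm q : ℕ) : ℤ) < a := by exact_mod_cast hlt
    have hq3 : (3 : ℤ) ≤ q := by exact_mod_cast hq
    rw [h10, hn] at h11
    have q2 : 3 * (q : ℤ) ≤ (q : ℤ) ^ 2 := by nlinarith
    have q3 : 3 * (q : ℤ) ^ 2 ≤ (q : ℤ) ^ 3 := by nlinarith
    linarith
  · have hn := mm_cast hq
    have h10 : (a : ℤ) = (q : ℤ) * ((q : ℤ) ^ 3 - 1) := by
      rw [h8]
      have : 1 ≤ q ^ 3 := Nat.one_le_pow _ _ (by omega)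
      push_cast [Nat.cast_sub this]
      ring
    have hq5 : (5 : ℤ) ≤ q := by exact_mod_cast h.q5
    have e3 : (d : ℤ) * a = (u + 1) * R := by exact_mod_cast h3
    have e4 : (d : ℤ) * mm q = u * R + 1 := by exact_mod_cast h4
    have hd1 : (1 : ℤ) ≤ d := by exact_mod_cast hd
    have e5 : (R : ℤ) = (d : ℤ) * ((q : ℤ) ^ 2 - q - 1) + 1 := by
      have : (d : ℤ) * a - d * ((mm q : ℕ) : ℤ) = R - 1 := by rw [e4, e3]; ring
      rw [hn, h10] at this
      linear_combination -this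
    obtain ⟨-, h11⟩ := core_uni_sub (Q := (q : ℤ)) (D := (d : ℤ)) (U := (u : ℤ)) hq5 hd1 (by rw [← e5, ← hn, e4])
    have h12 : u = q * (q + 1) := by exact_mod_cast h11
    exact not_pp_mul_succ (a := q) (by omega) (h12 ▸ hu)
  · have hn := mm_cast hq
    have h10 : (a : ℤ) = (q : ℤ) * ((q : ℤ) ^ 3 + 1) := by
      rw [h8]
      push_cast
      ring
    have hq5 : (5 : ℤ) ≤ q := by exact_mod_cast h.q5
    have e3 : (d : ℤ) * a = (u + 1) * R := by exact_mod_cast h3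
    have e4 : (d : ℤ) * mm q = u * R + 1 := by exact_mod_cast h4
    have hd1 : (1 : ℤ) ≤ d := by exact_mod_cast hd
    have e5 : (R : ℤ) = (d : ℤ) * ((q : ℤ) ^ 2 + q - 1) + 1 := by
      have : (d : ℤ) * a - d * ((mm q : ℕ) : ℤ) = R - 1 := by rw [e4, e3]; ring
      rw [hn, h10] at this
      linear_combination -this
    obtain ⟨-, h11⟩ := core_uni_add (Q := (q : ℤ)) (D := (d : ℤ)) (U := (u : ℤ)) hq5 hd1 (by rw [← e5, ← hn, e4])
    obtain ⟨t, rfl⟩ : ∃ t, q = t + 1 := ⟨q - 1, by omega⟩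
    have h12 : u = t * (t + 1) := by
      push_cast at h11
      have : (u : ℤ) = t * (t + 1) := by rw [h11]; ring
      exact_mod_cast this
    exact not_pp_mul_succ (a := t) (by omega) (h12 ▸ hu)

/-- **Linear type, `d = 1`**: symplectic and orthogonal groups, `PSL` over small fields. -/
theorem dead_plus {u k c a : ℕ} (hu : IsPrimePow u) (hk : 3 ≤ k) (hc : c = 1 ∨ c = 2 ∧ Odd u)
    (h1 : mm q * (u - 1) + 1 = u ^ k) (h2 : c * a + 1 = u ^ (k - 1)) (ho : Om p q a) : False := by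
  have hq := h.hq
  have hu2 := hu.two_le
  have h73 := mm_ge h
  have h9 : 9 ≤ q ^ 2 := by nlinarith
  obtain ⟨x, rfl⟩ : ∃ x, u = x + 1 := ⟨u - 1, by omega⟩
  rw [Nat.add_sub_cancel] at h1
  obtain ⟨P, hP⟩ := exists_geom x (k - 1)
  have h3 : c * a = x * P := by omega
  have h4 : mm q = (x + 1) * P + 1 := by
    have h5 : (x + 1) ^ k = (x + 1) * (x + 1) ^ (k - 1) := by
      rw [← pow_succ', Nat.sub_add_cancel (by omega)]
    rw [h5, ← hP] at h1
    have h6 : x * mm q = x * ((x + 1) * P + 1) := by nlinarith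
    exact Nat.eq_of_mul_eq_mul_left (by omega) h6
  have hP5 : x + 2 ≤ P := by
    have h5 : (x + 1) ^ 2 ≤ (x + 1) ^ (k - 1) := Nat.pow_le_pow_right (by omega) (by omega)
    rw [← hP] at h5
    by_contra hcon
    push Not at hcon
    have : x * P ≤ x * (x + 1) := Nat.mul_le_mul_left _ (by omega)
    nlinarith
  have hco : Nat.Coprime (x + 1) P := by
    rw [Nat.coprime_comm]
    refine Nat.Coprime.coprime_dvd_right (dvd_pow_self (x + 1) (show k - 1 ≠ 0 by omega)) ?_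
    rw [← hP, mul_comm]
    simp
  rcases split h hu hco h4 with ⟨h5, h6⟩ | h5
  · omega
  · have hPa : P ∣ a := by
      rcases hc with rfl | ⟨rfl, hodd⟩
      · rw [one_mul] at h3
        exact h3 ▸ Dvd.intro_left _ rfl
      · obtain ⟨y, hy⟩ := hodd
        have hx : x = 2 * y := by omega
        subst hx
        exact ⟨y, by nlinarith⟩
    have ha0 : 0 < a := by
      by_contra hcon
      have : a = 0 := by omega
      subst this
      have : 0 < x * P := Nat.mul_pos (by omega) (by omega)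
      omega
    have h6 := Nat.le_of_dvd (by omega) (Om.sq h ho (h5.trans hPa))
    have h7 := Nat.le_of_dvd ha0 hPa
    have h8 := Nat.le_of_dvd (by omega) h5
    have hc2 : c ≤ 2 := by omega
    have h10 : c * a ≤ 2 * q ^ 2 := Nat.mul_le_mul hc2 h6
    have h11 : x * q ^ 2 ≤ x * P := Nat.mul_le_mul_left _ (by omega)
    have hx2 : x ≤ 2 := by
      by_contra hcon
      push Not at hcon
      have : 3 * q ^ 2 ≤ x * q ^ 2 := Nat.mul_le_mul_right _ hcon
      omega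
    have h12 : (x + 1) * P ≤ 3 * q ^ 2 := Nat.mul_le_mul (by omega) (by omega)
    have h13 := mm_eq hq
    have h14 : 8 ≤ q ^ 2 - 1 := by omega
    have h15 : q ^ 2 * 8 ≤ q ^ 2 * (q ^ 2 - 1) := Nat.mul_le_mul_left _ h14
    omega

/-- **Unitary type, `d = 1`**: symplectic and orthogonal groups. -/
theorem dead_minus {u k c a : ℕ} (hu : IsPrimePow u) (hk : 3 ≤ k) (hko : Odd k) (hc : c = 1 ∨ c = 2 ∧ Odd u)
    (h1 : mm q * (u + 1) = u ^ k + 1) (h2 : c * a + 1 = u ^ (k - 1)) (ho : Om p q a) : u = q ^ 2 := by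
  have hq := h.hq
  have hu2 := hu.two_le
  have h73 := mm_ge h
  have h9 : 9 ≤ q ^ 2 := by nlinarith
  obtain ⟨j, hj⟩ : ∃ j, k - 1 = 2 * j := by
    obtain ⟨j, hj⟩ := hko
    exact ⟨j, by omega⟩
  obtain ⟨R, hR⟩ := exists_geom_alt (u := u) (by omega) j
  rw [← hj] at hR
  have h3 : c * a = (u + 1) * R := by omega
  have h4 : mm q = u * R + 1 := by
    have h5 : u ^ k = u * u ^ (k - 1) := by
      rw [← pow_succ', Nat.sub_add_cancel (by omega)]
    rw [h5, ← hR] at h1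
    have h6 : (u + 1) * mm q = (u + 1) * (u * R + 1) := by nlinarith
    exact Nat.eq_of_mul_eq_mul_left (by omega) h6
  have hR0 : 0 < R := by
    by_contra hcon
    have : R = 0 := by omega
    subst this
    omega
  have hco : Nat.Coprime u R := by
    rw [Nat.coprime_comm]
    refine Nat.Coprime.coprime_dvd_right (dvd_pow_self u (show k - 1 ≠ 0 by omega)) ?_
    rw [← hR, mul_comm]
    simp
  rcases split h hu hco h4 with ⟨h5, -⟩ | h5
  · exact h5
  · exfalso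
    have hRa : R ∣ a := by
      rcases hc with rfl | ⟨rfl, hodd⟩
      · rw [one_mul] at h3
        exact h3 ▸ Dvd.intro_left _ rfl
      · obtain ⟨y, hy⟩ := hodd
        exact ⟨y + 1, by rw [hy] at h3; nlinarith⟩
    have ha0 : 0 < a := by
      by_contra hcon
      have : a = 0 := by omega
      subst this
      have : 0 < (u + 1) * R := Nat.mul_pos (by omega) hR0
      omega
    have h6 := Nat.le_of_dvd (by omega) (Om.sq h ho (h5.trans hRa))
    have h8 := Nat.le_of_dvd hR0 h5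
    have hc2 : c ≤ 2 := by omega
    have h10 : c * a ≤ 2 * q ^ 2 := Nat.mul_le_mul hc2 h6
    have h11 : (u + 1) * q ^ 2 ≤ (u + 1) * R := Nat.mul_le_mul_left _ (by omega)
    have h12 : 3 * q ^ 2 ≤ (u + 1) * q ^ 2 := Nat.mul_le_mul_right _ (by omega)
    omega

/-- an odd prime divisor of `q² + 1` -/
theorem exists_prime_sq : ∃ t : ℕ, t.Prime ∧ t ≠ 2 ∧ t ∣ q ^ 2 + 1 := by
  have hq := h.hq
  have h9 : 9 ≤ q ^ 2 := by nlinarith
  by_contra hcon
  push Not at hcon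
  have h1 : ∀ t : ℕ, t.Prime → t ∣ q ^ 2 + 1 → t = 2 := fun t ht hd => by
    by_contra h2
    exact hcon t ht h2 hd
  have h2 := Nat.eq_prime_pow_of_unique_prime_dvd (n := q ^ 2 + 1) (p := 2) (by omega) (fun {t} ht hd => h1 t ht hd)
  have h3 : 3 ≤ (q ^ 2 + 1).primeFactorsList.length := by
    by_contra hcon2
    push Not at hcon2
    have : 2 ^ (q ^ 2 + 1).primeFactorsList.length ≤ 2 ^ 2 := Nat.pow_le_pow_right (by norm_num) (by omega)
    omega
  have h4 : 4 ∣ q ^ 2 + 1 := by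
    rw [h2]
    exact Dvd.dvd.trans (by norm_num : 4 ∣ 2 ^ 3) (pow_dvd_pow 2 h3)
  have h5 : q ^ 2 % 4 = ((q % 4) ^ 2) % 4 := by rw [Nat.pow_mod]
  have h6 : q % 4 < 4 := Nat.mod_lt _ (by norm_num)
  interval_cases hq4 : q % 4 <;> omega

/-- an odd prime divisor of `q² + 1` is not a member of `Om`. -/
theorem not_om_sq {t : ℕ} (ht : t.Prime) (ht2 : t ≠ 2) (hd : t ∣ q ^ 2 + 1) : ¬ Om p q t := by
  intro ho
  have hq := h.hq
  have h1 := Om.prime h ht ho
  have h2 := mm_add_sq hq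
  rcases h1 with h3 | h3 | h3
  · -- `q⁴ - q² + 1 = (q² + 1)(q² - 2) + 3`
    have h4 : mm q + 3 * q ^ 2 = (q ^ 2 + 1) ^ 2 := by nlinarith
    have h5 : t ∣ 3 * q ^ 2 := by
      have : t ∣ mm q + 3 * q ^ 2 := by rw [h4]; exact Dvd.dvd.pow hd two_ne_zero
      exact (Nat.dvd_add_right h3).1 this
    rcases ht.dvd_mul.1 h5 with h6 | h6
    · have := Nat.le_of_dvd (by norm_num) h6
      have := prime_mm_ge h ht h3
      omega
    · exact not_dvd_q h ht h3 (ht.dvd_of_dvd_pow h6)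
  · have h4 : t ∣ 1 := (Nat.dvd_add_right (dvd_pow h3 two_ne_zero)).1 hd
    exact ht.one_lt.ne' (Nat.dvd_one.1 h4)
  · have h1q : 1 ≤ q ^ 6 := Nat.one_le_pow _ _ (by omega)
    have h4 : t ∣ q ^ 6 + 1 := by
      have : q ^ 6 + 1 = (q ^ 2 + 1) * mm q := by
        have h5 := mm_cast hq
        zify
        rw [h5]
        ring
      rw [this]
      exact Dvd.dvd.mul_right hd _
    have h5 : t ∣ 2 := by
      have h6 : q ^ 6 + 1 = (q ^ 6 - 1) + 2 := by omega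
      rw [h6] at h4
      exact (Nat.dvd_add_right h3).1 h4
    exact ht2 ((Nat.prime_dvd_prime_iff_eq ht Nat.prime_two).1 h5)

end Cfsg.Agent.R2.Spec.X1.TI
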