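import Cfsg.Agent.R2.Spec.X1.TI.Num

/-!
# Identification of `³D₄(q)`: equations without solutions (helper134, statement S3478)

`n = mm q`, `Par p q`.
* `split` : `n = u P + 1`, `u` a prime power prime to `P` : `u = q²`, `P = q² - 1`, or `q² ∣ P`;
* `ne_pow_add_one`, `ne_half` : `n ≠ u ^ m + 1`, `2 n ≠ w² + 1`;
* `Om.large` : the large members of `Om`;
* `dead_lin` : `d n (u - 1) + 1 = u ^ k`, `d a + 1 = u ^ (k - 1)`, `a ∈ Om`, `u ≥ 4` or `d = 1` : impossible (`PSL`);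
* `dead_uni` : `d n (u + 1) = u ^ k + 1`, `d a + 1 = u ^ (k - 1)`, `a ∈ Om` : impossible (`PSU`);
* `dead_plus`, `dead_minus` : the same with `d = 1` and `c a + 1 = u ^ (k - 1)`, `c ∣ u ∓ 1` (symplectic and orthogonal groups).
-/

set_option autoImplicit false

namespace Cfsg.Agent.R2.Spec.X1.TI

open Cfsg.Agent.R2.Spec.X1.TD

variable {p q : ℕ} (h : Par p q)

include h

theorem q_ge : 3 ≤ q := h.hq

theorem q_three_or : q = 3 ∨ 4 ≤ q := by
  have := h.hq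
  omega

/-- **The equation `n = u P + 1`.** -/
theorem split {u P : ℕ} (hu : IsPrimePow u) (hco : Nat.Coprime u P) (h1 : mm q = u * P + 1) :
    (u = q ^ 2 ∧ P = q ^ 2 - 1) ∨ q ^ 2 ∣ P := by
  obtain ⟨k, hk, hqk⟩ := h.hk
  have hp := h.prime
  have h2 : u * P = q ^ 2 * (q ^ 2 - 1) := by
    have := mm_eq h.hq
    omega
  have hq1 : 1 ≤ q ^ 2 := Nat.one_le_pow _ _ (by have := h.hq; omega)
  have hpq1 : ¬ p ∣ q ^ 2 - 1 := by
    intro h3
    have h4 : p ∣ q ^ 2 := dvd_pow h.p_dvd two_ne_zero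
    have h5 : p ∣ 1 := by
      have := Nat.dvd_sub h4 h3
      rwa [Nat.sub_sub_self hq1] at this
    exact hp.one_lt.ne' (Nat.dvd_one.1 h5)
  obtain ⟨r, f, hr, hf, rfl⟩ := hu
  have hr : r.Prime := Nat.prime_iff.2 hr
  by_cases hrp : r = p
  · left
    subst hrp
    have h3 : Nat.Coprime (q ^ 2) P := by
      rw [hqk, ← pow_mul]
      refine Nat.Coprime.pow_left _ ?_
      exact Nat.Coprime.coprime_dvd_left (dvd_pow_self r hf.ne') hco
    have h4 : q ^ 2 ∣ r ^ f := h3.dvd_of_dvd_mul_right (h2 ▸ Dvd.intro _ rfl)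
    have h5 : r ^ f ∣ q ^ 2 := by
      have h6 : Nat.Coprime (r ^ f) (q ^ 2 - 1) := Nat.Coprime.pow_left _ ((Nat.Prime.coprime_iff_not_dvd hp).2 hpq1)
      exact h6.dvd_of_dvd_mul_right (h2 ▸ Dvd.intro _ rfl)
    have h6 := Nat.dvd_antisymm h5 h4
    refine ⟨h6, ?_⟩
    rw [h6] at h2
    exact Nat.eq_of_mul_eq_mul_left (by omega) h2
  · right
    have h3 : Nat.Coprime (q ^ 2) (r ^ f) := by
      rw [hqk, ← pow_mul]
      exact Nat.Coprime.pow _ _ ((Nat.coprime_primes hp hr).2 (Ne.symm hrp))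
    exact h3.dvd_of_dvd_mul_left (h2 ▸ Dvd.intro _ rfl)

theorem ne_pow_add_one {u m : ℕ} (hu : IsPrimePow u) (hm : m ≠ 0) : mm q ≠ u ^ m + 1 := by
  intro h1
  have hq := h.hq
  rcases split h (u := u ^ m) (P := 1) (hu.pow hm) (Nat.coprime_one_right _) (by rw [mul_one]; exact h1) with
    ⟨-, h2⟩ | h2
  · have : 9 ≤ q ^ 2 := by nlinarith
    omega
  · have h3 := Nat.le_of_dvd one_pos h2
    have : 9 ≤ q ^ 2 := by nlinarith
    omega

/-- `2 n = w² + 1` is impossible. -/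
theorem ne_half (w : ℕ) : 2 * mm q ≠ w ^ 2 + 1 := by
  intro h1
  have hq := h.hq
  have h2 := mm_add_sq hq
  set Q := q ^ 2 with hQ
  have h9 : 9 ≤ Q := by nlinarith
  have h3 : w ^ 2 + 2 * Q = 2 * Q ^ 2 + 1 := by
    have : q ^ 4 = Q ^ 2 := by rw [hQ]; ring
    omega
  have h4 : Q < w := by
    by_contra hcon
    push Not at hcon
    have : w ^ 2 ≤ Q ^ 2 := Nat.pow_le_pow_left hcon 2
    nlinarith
  obtain ⟨v, rfl⟩ : ∃ v, w = Q + v := ⟨w - Q, by omega⟩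
  -- `2 Q v + v² = (Q - 1)²`
  have h5 : 2 * Q * v + v ^ 2 + 2 * Q = Q ^ 2 + 1 := by nlinarith
  have hv0 : 0 < v := by omega
  have hv : 2 * v + 3 ≤ Q := by
    by_contra hcon
    push Not at hcon
    nlinarith
  have h6 : Q ∣ (v - 1) * (v + 1) := by
    have h7 : (v - 1) * (v + 1) + 1 = v ^ 2 := by
      obtain ⟨t, rfl⟩ : ∃ t, v = t + 1 := ⟨v - 1, by omega⟩
      rw [Nat.add_sub_cancel]; ring
    have h8 : (v - 1) * (v + 1) + Q * (2 * v + 2) = Q * Q := by nlinarith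
    have h10 : Q ∣ (v - 1) * (v + 1) + Q * (2 * v + 2) := by rw [h8]; exact Dvd.intro _ rfl
    exact (Nat.dvd_add_left (Dvd.intro _ rfl)).1 h10
  have hne1 : v ≠ 1 := by
    rintro rfl
    have : Q * 4 = Q * Q := by nlinarith
    have := Nat.eq_of_mul_eq_mul_left (by omega) this
    omega
  obtain ⟨k, hk, hqk⟩ := h.hk
  have hp := h.prime
  have hp5 := h.h5
  have hQ9 : Q = p ^ (2 * k) := by rw [hQ, hqk, ← pow_mul, mul_comm]
  by_cases h3v : p ∣ v - 1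
  · have hco : Nat.Coprime (p ^ (2 * k)) (v + 1) := by
      refine Nat.Coprime.pow_left _ ((Nat.Prime.coprime_iff_not_dvd hp).2 ?_)
      intro h7
      have h8 := Nat.dvd_sub h7 h3v
      have h9 : v + 1 - (v - 1) = 2 := by omega
      rw [h9] at h8
      have := Nat.le_of_dvd (by norm_num) h8
      omega
    have h7 := hco.dvd_of_dvd_mul_right (hQ9 ▸ h6)
    rw [← hQ9] at h7
    have := Nat.le_of_dvd (by omega) h7
    omega
  · have hco : Nat.Coprime (p ^ (2 * k)) (v - 1) :=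
      Nat.Coprime.pow_left _ ((Nat.Prime.coprime_iff_not_dvd hp).2 h3v)
    have h7 := hco.dvd_of_dvd_mul_left (hQ9 ▸ h6)
    rw [← hQ9] at h7
    have := Nat.le_of_dvd (by omega) h7
    omega

/-- `n = v² + v + 1` : `v + 1 = q²`. -/
theorem eq_add {v : ℕ} (h1 : mm q = v ^ 2 + v + 1) : v + 1 = q ^ 2 := by
  have h2 := mm_add_sq h.hq
  have h3 : q ^ 4 = (q ^ 2) ^ 2 := by ring
  rcases lt_trichotomy (v + 1) (q ^ 2) with h4 | h4 | h4
  · exfalso
    nlinarith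
  · exact h4
  · exfalso
    have h5 : (q ^ 2) ^ 2 ≤ v ^ 2 := Nat.pow_le_pow_left (by omega) 2
    have h6 := h.hq
    nlinarith

/-- `n = v² - v + 1` : `v = q²`. -/
theorem eq_sub {v : ℕ} (h1 : mm q + v = v ^ 2 + 1) (hv : 1 ≤ v) : v = q ^ 2 := by
  obtain ⟨t, rfl⟩ : ∃ t, v = t + 1 := ⟨v - 1, by omega⟩
  exact eq_add h (by nlinarith)

/-- `3 n = v² + v + 1` is impossible. -/
theorem ne_three (v : ℕ) : 3 * mm q ≠ v ^ 2 + v + 1 := by
  intro h1
  have hq := h.hq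
  have h2 := mm_eq hq
  have h9 : 9 ≤ q ^ 2 := by nlinarith
  -- `v = 3 w + 1`
  have hv : v % 3 = 1 := by
    have h3 : (v ^ 2 + v + 1) % 3 = 0 := by omega
    have h4 : v ^ 2 % 3 = ((v % 3) ^ 2) % 3 := by rw [Nat.pow_mod]
    have h5 : v % 3 < 3 := Nat.mod_lt _ (by norm_num)
    interval_cases hv3 : v % 3 <;> omega
  obtain ⟨w, rfl⟩ : ∃ w, v = 3 * w + 1 := ⟨v / 3, by omega⟩
  have h3 : 3 * (w * (w + 1)) = q ^ 2 * (q ^ 2 - 1) := by nlinarith
  obtain ⟨k, hk, hqk⟩ := h.hk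
  have hp := h.prime
  have hp5 := h.h5
  have h4 : q ^ 2 ∣ w * (w + 1) := by
    have hco : Nat.Coprime (q ^ 2) 3 := by
      rw [hqk, ← pow_mul]
      refine Nat.Coprime.pow_left _ ((Nat.coprime_primes hp Nat.prime_three).2 (by omega))
    exact hco.dvd_of_dvd_mul_left (h3 ▸ Dvd.intro _ rfl)
  have h5 : q ^ 2 ≤ w + 1 := by
    rw [hqk, ← pow_mul] at h4 ⊢
    have hw0 : 0 < w := by
      by_contra hcon
      have : w = 0 := by omega
      subst this
      have : 0 < q ^ 2 * (q ^ 2 - 1) := Nat.mul_pos (by omega) (by omega)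
      omega
    by_cases hpw : p ∣ w
    · have : Nat.Coprime (p ^ (k * 2)) (w + 1) := by
        refine Nat.Coprime.pow_left _ ((Nat.Prime.coprime_iff_not_dvd hp).2 ?_)
        intro h7
        exact hp.one_lt.ne' (Nat.dvd_one.1 ((Nat.dvd_add_right hpw).1 h7))
      exact (Nat.le_of_dvd hw0 (this.dvd_of_dvd_mul_right h4)).trans (Nat.le_succ _)
    · have : Nat.Coprime (p ^ (k * 2)) w := Nat.Coprime.pow_left _ ((Nat.Prime.coprime_iff_not_dvd hp).2 hpw)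
      exact Nat.le_of_dvd (by omega) (this.dvd_of_dvd_mul_left h4)
  obtain ⟨Q, hQ⟩ : ∃ Q, q ^ 2 = Q + 1 := ⟨q ^ 2 - 1, by omega⟩
  rw [hQ, Nat.add_sub_cancel] at h3
  rw [hQ] at h5 h9
  nlinarith

/-- **The large members of `Om`.** -/
theorem Om.large {a : ℕ} (ho : Om p q a) (h7 : 5 * mm q ≤ 7 * a) :
    a = mm q ∨ a = (q ^ 3 - 1) * (q + 1) ∨ a = (q ^ 3 + 1) * (q - 1) ∨ a = q * (q ^ 3 - 1) ∨ a = q * (q ^ 3 + 1) := by
  have hq := h.q5
  have hp5 := h.h5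
  have hpor := h.eq_or
  obtain ⟨b, rfl⟩ : ∃ b, q = b + 3 := ⟨q - 3, by omega⟩
  have hb2 : 2 ≤ b := by omega
  have hn : mm (b + 3) = (b + 3) ^ 4 - (b + 3) ^ 2 + 1 := rfl
  have h2 := mm_add_sq h.hq
  have e1 : (b + 3) ^ 3 - 1 = b ^ 3 + 9 * b ^ 2 + 27 * b + 26 := by
    have : (b + 3) ^ 3 = b ^ 3 + 9 * b ^ 2 + 27 * b + 27 := by ring
    omega
  have e2 : (b + 3) ^ 3 + 1 = b ^ 3 + 9 * b ^ 2 + 27 * b + 28 := by ring
  have e3 : b + 3 - 1 = b + 2 := by omega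
  have e5 : mm (b + 3) = b ^ 4 + 12 * b ^ 3 + 53 * b ^ 2 + 102 * b + 73 := by
    have h3 : (b + 3) ^ 4 = b ^ 4 + 12 * b ^ 3 + 54 * b ^ 2 + 108 * b + 81 := by ring
    have h4 : (b + 3) ^ 2 = b ^ 2 + 6 * b + 9 := by ring
    omega
  have ha0 : 0 < a := by omega
  -- a divisor `a` of `x < 2 a` is `x`
  have key : ∀ x : ℕ, 0 < x → a ∣ x → x < 2 * a → a = x := by
    rintro x hx ⟨c, rfl⟩ h5
    have hc1 : c = 1 := by
      have h6 : c ≠ 0 := by rintro rfl; omega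
      by_contra hcon
      have : 2 ≤ c := by omega
      nlinarith
    rw [hc1, mul_one]
  have f4 : 2 * b ^ 3 ≤ b ^ 4 := by
    have : b ^ 4 = b * b ^ 3 := by ring
    rw [this]
    exact Nat.mul_le_mul_right _ hb2
  have f3 : 2 * b ^ 2 ≤ b ^ 3 := by
    have : b ^ 3 = b * b ^ 2 := by ring
    rw [this]
    exact Nat.mul_le_mul_right _ hb2
  rcases ho with h5 | h5 | h5 | h5 | h5 | h5
  · exact Or.inl (key _ (by omega) h5 (by omega))
  · right; left
    refine key _ (by rw [e1]; positivity) h5 ?_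
    rw [e1]
    have e : (b ^ 3 + 9 * b ^ 2 + 27 * b + 26) * (b + 3 + 1) = b ^ 4 + 13 * b ^ 3 + 63 * b ^ 2 + 134 * b + 104 := by ring
    rw [e]
    omega
  · right; right; left
    refine key _ (by rw [e3]; positivity) h5 ?_
    rw [e2, e3]
    have e : (b ^ 3 + 9 * b ^ 2 + 27 * b + 28) * (b + 2) = b ^ 4 + 11 * b ^ 3 + 45 * b ^ 2 + 82 * b + 56 := by ring
    rw [e]
    omega
  · rcases hpor with h6 | h6
    · right; right; right; left
      rw [← h6] at h5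
      refine key _ (by rw [e1]; positivity) h5 ?_
      rw [e1]
      have e : (b + 3) * (b ^ 3 + 9 * b ^ 2 + 27 * b + 26) = b ^ 4 + 12 * b ^ 3 + 54 * b ^ 2 + 107 * b + 78 := by ring
      rw [e]
      omega
    · exfalso
      -- `5 p ≤ q`
      have h8 : 5 * p ≤ b + 3 := by nlinarith
      have h9 := Nat.le_of_dvd (by rw [e1]; positivity) h5
      rw [e1] at h9
      have h10 : 5 * (p * (b ^ 3 + 9 * b ^ 2 + 27 * b + 26)) ≤ (b + 3) * (b ^ 3 + 9 * b ^ 2 + 27 * b + 26) := by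
        rw [← mul_assoc]
        exact Nat.mul_le_mul_right _ h8
      have e : (b + 3) * (b ^ 3 + 9 * b ^ 2 + 27 * b + 26) = b ^ 4 + 12 * b ^ 3 + 54 * b ^ 2 + 107 * b + 78 := by ring
      rw [e] at h10
      omega
  · rcases hpor with h6 | h6
    · right; right; right; right
      rw [← h6] at h5
      refine key _ (by rw [e2]; positivity) h5 ?_
      rw [e2]
      have e : (b + 3) * (b ^ 3 + 9 * b ^ 2 + 27 * b + 28) = b ^ 4 + 12 * b ^ 3 + 54 * b ^ 2 + 109 * b + 84 := by ring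
      rw [e]
      omega
    · exfalso
      have h8 : 5 * p ≤ b + 3 := by nlinarith
      have h9 := Nat.le_of_dvd (by rw [e2]; positivity) h5
      rw [e2] at h9
      have h10 : 5 * (p * (b ^ 3 + 9 * b ^ 2 + 27 * b + 28)) ≤ (b + 3) * (b ^ 3 + 9 * b ^ 2 + 27 * b + 28) := by
        rw [← mul_assoc]
        exact Nat.mul_le_mul_right _ h8
      have e : (b + 3) * (b ^ 3 + 9 * b ^ 2 + 27 * b + 28) = b ^ 4 + 12 * b ^ 3 + 54 * b ^ 2 + 109 * b + 84 := by ring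
      rw [e] at h10
      omega
  · exfalso
    have h8 : p ^ 2 ≤ (b + 3) ^ 2 := Nat.pow_le_pow_left h.p_le 2
    have h9 := Nat.le_of_dvd (by positivity) h5
    have e : (b + 3) ^ 2 = b ^ 2 + 6 * b + 9 := by ring
    rw [e] at h8
    omega

end Cfsg.Agent.R2.Spec.X1.TI
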