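import Cfsg.Agent.R2.Spec.X1.TD.Spec

/-!
# Identification of `³D₄(q)`: number theory (helper134, statement S3478)

`mm q = q⁴ - q² + 1`, `Par p q` : `q = p ^ k > 2`, `p = 2` or `3`.  `Q = q²`, `mm q - 1 = Q (Q - 1)`.
* `mm_eq`, `mm_mod`, `mm_ge`, `prime_mm` (prime divisors are `≡ 1 mod 12`), `coprime_mm`;
* `Om.dvd_mm` : if a prime divisor of `mm q` divides an element of `Om`, this element divides `mm q`;
* `Om.dvd_of_coprime`, `Om.le`, `Om.near` (large members of `Om`);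
* equations without solutions: `ne_pow_add_one`, `ne_half`, `ne_three`, `ne_five_plus`, `ne_five_minus`, ...
-/

set_option autoImplicit false

namespace Cfsg.Agent.R2.Spec.X1.TI

open Cfsg.Agent.R2.Spec.X1.TD

variable {p q : ℕ}

theorem mm_eq (hq : 2 < q) : mm q = q ^ 2 * (q ^ 2 - 1) + 1 := by
  unfold mm
  have h1 : 1 ≤ q ^ 2 := Nat.one_le_pow _ _ (by omega)
  rw [Nat.mul_sub, mul_one]
  congr 2
  ring

/-- `mm q = Q (Q - 1) + 1` in the form `mm q + Q = Q² + 1` -/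
theorem mm_add_sq (hq : 2 < q) : mm q + q ^ 2 = q ^ 4 + 1 := by
  unfold mm
  have h1 : q ^ 2 ≤ q ^ 4 := Nat.pow_le_pow_right (by omega) (by norm_num)
  omega

theorem mm_cast (hq : 2 < q) : ((mm q : ℕ) : ℤ) = (q : ℤ) ^ 4 - (q : ℤ) ^ 2 + 1 := by
  have h1 := mm_add_sq hq
  have h2 : ((mm q + q ^ 2 : ℕ) : ℤ) = ((q ^ 4 + 1 : ℕ) : ℤ) := by rw [h1]
  push_cast at h2
  linarith

section par

variable (h : Par p q)

include h

theorem mm_ge : 73 ≤ mm q := by
  have h1 := mm_add_sq h.hq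
  have h2 := h.hq
  have h3 : 9 ≤ q ^ 2 := by nlinarith
  have h4 : q ^ 4 = q ^ 2 * q ^ 2 := by ring
  nlinarith

theorem mm_mod : mm q % 12 = 1 := by
  have h1 := mm_add_sq h.hq
  have h2 : q % 12 < 12 := Nat.mod_lt _ (by norm_num)
  have h3 : (mm q + q ^ 2) % 12 = (q ^ 4 + 1) % 12 := by rw [h1]
  have h4 : q ^ 2 % 12 = ((q % 12) ^ 2) % 12 := by rw [Nat.pow_mod]
  have h5 : q ^ 4 % 12 = ((q % 12) ^ 4) % 12 := by rw [Nat.pow_mod]
  generalize q % 12 = r at *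
  interval_cases r <;> omega

theorem mm_odd : Odd (mm q) := by
  have h1 := mm_mod h
  rw [Nat.odd_iff]
  omega

/-- prime divisors of `mm q` -/
theorem prime_mm {s : ℕ} (hs : s.Prime) (hd : s ∣ mm q) : s % 12 = 1 := by
  have h2 : s ≠ 2 := by
    rintro rfl
    have := (Nat.odd_iff.1 (mm_odd h))
    omega
  have h3 : s ≠ 3 := by
    rintro rfl
    have := mm_mod h
    omega
  have := Fact.mk hs
  have hz : ((q : ZMod s)) ^ 4 - (q : ZMod s) ^ 2 + 1 = 0 := by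
    have h4 : ((mm q : ℕ) : ZMod s) = 0 := (ZMod.natCast_eq_zero_iff _ _).2 hd
    have h5 : ((mm q + q ^ 2 : ℕ) : ZMod s) = ((q ^ 4 + 1 : ℕ) : ZMod s) := by rw [mm_add_sq h.hq]
    push_cast at h5
    rw [h4, zero_add] at h5
    rw [h5]
    ring
  set a : ZMod s := (q : ZMod s)
  have ha0 : a ≠ 0 := by
    intro h0
    rw [h0] at hz
    simp at hz
  have h6 : a ^ 6 = -1 := by
    have : a ^ 6 + 1 = (a ^ 2 + 1) * (a ^ 4 - a ^ 2 + 1) := by ring
    rw [hz, mul_zero] at this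
    exact eq_neg_of_add_eq_zero_left this
  have h2' : (2 : ZMod s) ≠ 0 := by
    intro h0
    have : ((2 : ℕ) : ZMod s) = 0 := by exact_mod_cast h0
    rw [ZMod.natCast_eq_zero_iff] at this
    exact h2 ((Nat.prime_dvd_prime_iff_eq hs Nat.prime_two).1 this)
  have h3' : (3 : ZMod s) ≠ 0 := by
    intro h0
    have : ((3 : ℕ) : ZMod s) = 0 := by exact_mod_cast h0
    rw [ZMod.natCast_eq_zero_iff] at this
    exact h3 ((Nat.prime_dvd_prime_iff_eq hs Nat.prime_three).1 this)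
  have h12 : a ^ 12 = 1 := by
    have : a ^ 12 = (a ^ 6) ^ 2 := by ring
    rw [this, h6]
    ring
  have hord : orderOf a = 12 := by
    refine orderOf_eq_of_pow_and_pow_div_prime (by norm_num) h12 ?_
    intro r hr hrd
    have : r ∣ 2 ^ 2 * 3 := by simpa using hrd
    rcases hr.dvd_mul.1 this with h7 | h7
    · have h8 := (Nat.prime_dvd_prime_iff_eq hr Nat.prime_two).1 (hr.dvd_of_dvd_pow h7)
      subst h8
      show a ^ 6 ≠ 1
      rw [h6]
      intro h9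
      apply h2'
      linear_combination -h9
    · have h8 := (Nat.prime_dvd_prime_iff_eq hr Nat.prime_three).1 h7
      subst h8
      show a ^ 4 ≠ 1
      intro h9
      -- `a⁴ = 1` and `a⁴ - a² + 1 = 0` give `a² = 2`, `4 = 1`
      have h10 : a ^ 2 = 2 := by linear_combination h9 - hz
      apply h3'
      have : a ^ 4 = (a ^ 2) ^ 2 := by ring
      rw [this, h10] at h9
      linear_combination h9
  have h7 : orderOf a ∣ s - 1 := ZMod.orderOf_dvd_card_sub_one ha0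
  rw [hord] at h7
  have := hs.two_le
  omega

theorem prime_mm_ge {s : ℕ} (hs : s.Prime) (hd : s ∣ mm q) : 13 ≤ s := by
  have h1 := prime_mm h hs hd
  have := hs.two_le
  omega

/-- a prime divisor of `mm q` does not divide `q⁶ - 1` -/
theorem not_dvd_six {s : ℕ} (hs : s.Prime) (hd : s ∣ mm q) : ¬ s ∣ q ^ 6 - 1 := by
  intro h1
  have h2 := h.hq
  have h3 : 1 ≤ q ^ 6 := Nat.one_le_pow _ _ (by omega)
  have h4 : (q ^ 6 - 1) + 2 = (q ^ 2 + 1) * mm q := by
    have h5 := mm_cast h2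
    zify [h3]
    rw [h5]
    ring
  have h5 : s ∣ 2 := by
    have h6 : s ∣ (q ^ 6 - 1) + 2 := h4 ▸ Dvd.dvd.mul_left hd _
    exact (Nat.dvd_add_right h1).1 h6
  have := Nat.le_of_dvd (by norm_num) h5
  have := prime_mm_ge h hs hd
  omega

theorem not_dvd_q {s : ℕ} (hs : s.Prime) (hd : s ∣ mm q) : ¬ s ∣ q := by
  intro h1
  have h2 := mm_add_sq h.hq
  have h3 : s ∣ 1 := by
    have h4 : s ∣ q ^ 4 + 1 := by
      rw [← h2]
      exact dvd_add hd (dvd_pow h1 two_ne_zero)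
    exact (Nat.dvd_add_right (dvd_pow h1 (by norm_num))).1 h4
  exact hs.one_lt.ne' (Nat.dvd_one.1 h3)

/-! ### the members of `Om` -/

/-- `Q = q²` divides no member of `Om` except `q²` -/
theorem Om.sq {m : ℕ} (ho : Om p q m) (hd : q ^ 2 ∣ m) : m ∣ q ^ 2 := by
  have hq := h.hq
  have hp := h.prime
  have hpq := h.p_dvd
  have h1q : 1 ≤ q ^ 3 := Nat.one_le_pow _ _ (by omega)
  have hp2 : p ^ 2 ∣ m := (pow_dvd_pow_of_dvd hpq 2).trans hd
  have hpm : p ∣ m := (dvd_pow_self p two_ne_zero).trans hp2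
  have hn1 : ¬ p ∣ q ^ 3 - 1 := by
    intro h1
    have h2 := Nat.dvd_sub (dvd_pow hpq (show 3 ≠ 0 by norm_num)) h1
    rw [Nat.sub_sub_self h1q] at h2
    exact hp.one_lt.ne' (Nat.dvd_one.1 h2)
  have hn2 : ¬ p ∣ q ^ 3 + 1 := by
    intro h1
    exact hp.one_lt.ne' (Nat.dvd_one.1 ((Nat.dvd_add_right (dvd_pow hpq (show 3 ≠ 0 by norm_num))).1 h1))
  have hn3 : ¬ p ∣ q + 1 := by
    intro h1
    exact hp.one_lt.ne' (Nat.dvd_one.1 ((Nat.dvd_add_right hpq).1 h1))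
  have hn4 : ¬ p ∣ q - 1 := by
    intro h1
    have h2 := Nat.dvd_sub hpq h1
    rw [Nat.sub_sub_self (by omega)] at h2
    exact hp.one_lt.ne' (Nat.dvd_one.1 h2)
  have hn5 : ¬ p ∣ mm q := by
    intro h1
    rw [mm_eq hq] at h1
    have h2 : p ∣ q ^ 2 * (q ^ 2 - 1) := Dvd.dvd.mul_right (dvd_pow hpq two_ne_zero) _
    exact hp.one_lt.ne' (Nat.dvd_one.1 ((Nat.dvd_add_right h2).1 h1))
  have key : ∀ x : ℕ, ¬ p ∣ x → m ∣ p * x → False := fun x hx hm => by
    have h1 : p * p ∣ p * x := by rw [← pow_two]; exact hp2.trans hm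
    exact hx (Nat.dvd_of_mul_dvd_mul_left hp.pos h1)
  rcases ho with h5 | h5 | h5 | h5 | h5 | h5
  · exact absurd (hpm.trans h5) hn5
  · rcases hp.dvd_mul.1 (hpm.trans h5) with h6 | h6
    · exact absurd h6 hn1
    · exact absurd h6 hn3
  · rcases hp.dvd_mul.1 (hpm.trans h5) with h6 | h6
    · exact absurd h6 hn2
    · exact absurd h6 hn4
  · exact (key _ hn1 h5).elim
  · exact (key _ hn2 h5).elim
  · exact h5.trans (pow_dvd_pow_of_dvd hpq 2)

/-- the members of `Om` which are not divisible by a prime divisor of `mm q` -/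
theorem Om.mm_or {m : ℕ} (ho : Om p q m) : m ∣ mm q ∨ m ∣ q ^ 2 * (q ^ 6 - 1) := by
  have hq := h.hq
  have hpq := h.p_dvd
  have h1q : 1 ≤ q ^ 3 := Nat.one_le_pow _ _ (by omega)
  have h1q' : 1 ≤ q := by omega
  have hle : q ≤ q ^ 2 := Nat.le_self_pow two_ne_zero q
  have hpq2 : p ∣ q ^ 2 := hpq.trans (dvd_pow_self q two_ne_zero)
  have e6 : q ^ 6 - 1 = (q ^ 3 - 1) * (q ^ 3 + 1) := by
    have := Nat.sq_sub_sq (q ^ 3) 1
    rw [one_pow, ← pow_mul] at this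
    rw [this, mul_comm]
  have e1 : (q ^ 3 + 1) = (q + 1) * (q ^ 2 - q + 1) := by
    zify [hle]
    ring
  have e2 : (q ^ 3 - 1) = (q - 1) * (q ^ 2 + q + 1) := by
    zify [h1q, h1q']
    ring
  rcases ho with h5 | h5 | h5 | h5 | h5 | h5
  · exact Or.inl h5
  · exact Or.inr (h5.trans (Dvd.dvd.mul_left (by rw [e6, e1]; exact mul_dvd_mul_left _ (Dvd.intro _ rfl)) _))
  · exact Or.inr (h5.trans (Dvd.dvd.mul_left (by
      rw [e6, e2, mul_comm]; exact mul_dvd_mul (Dvd.intro _ rfl) dvd_rfl) _))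
  · exact Or.inr (h5.trans (mul_dvd_mul hpq2 (by rw [e6]; exact Dvd.intro _ rfl)))
  · exact Or.inr (h5.trans (mul_dvd_mul hpq2 (by rw [e6]; exact Dvd.intro_left _ rfl)))
  · exact Or.inr (h5.trans (Dvd.dvd.mul_right (pow_dvd_pow_of_dvd hpq 2) _))

/-- **A member of `Om` divisible by a prime divisor of `mm q` divides `mm q`.** -/
theorem Om.dvd_mm {m s : ℕ} (ho : Om p q m) (hs : s.Prime) (hsm : s ∣ m) (hsq : s ∣ mm q) : m ∣ mm q := by
  rcases Om.mm_or h ho with h1 | h1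
  · exact h1
  · exfalso
    rcases hs.dvd_mul.1 (hsm.trans h1) with h4 | h4
    · exact not_dvd_q h hs hsq (hs.dvd_of_dvd_pow h4)
    · exact not_dvd_six h hs hsq h4

/-- primes in `Om` -/
theorem Om.prime {t : ℕ} (ht : t.Prime) (ho : Om p q t) : t ∣ mm q ∨ t ∣ q ∨ t ∣ q ^ 6 - 1 := by
  rcases Om.mm_or h ho with h1 | h1
  · exact Or.inl h1
  · right
    rcases ht.dvd_mul.1 h1 with h2 | h2
    · exact Or.inl (ht.dvd_of_dvd_pow h2)
    · exact Or.inr h2

end par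

end Cfsg.Agent.R2.Spec.X1.TI
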