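import Cfsg.Agent.R2.Spec.X1.TI.Dead
import Cfsg.Agent.H129.CycRow
import Cfsg.Agent.H564.Near

/-!
# Identification of `³D₄(q)`: the situation (helper134, statement S3478)

`Sit p q S` : every element order of `S` is in `Om p q`, and `n = mm q = q⁴ - q² + 1` is an element order (`Par p q`).
* `Sit.ord`, `Sit.dvd_mm`, `Sit.prime`, `Sit.mm_dvd_card`, `Sit.not_two`, `Sit.not_ord`, `Sit.not_near`;
* `Sit.card_eq` : a cyclic subgroup `T` with `s ∣ |T|`, `s ∣ n`, containing the centralizers of its elements of order `s`, has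
  order `n`; `Sit.exact` : the same from `CycExact`;
* `Sit.exists_prime` : a prime `s ∣ n` (`s ≥ 13`, `s ∣ |S|`);
* `Sit.sq` : there is an odd prime divisor of `q² + 1`, which does not divide `|S|`.
-/

set_option autoImplicit false
set_option linter.unusedSectionVars false

namespace Cfsg.Agent.R2.Spec.X1.TI

open Cfsg.Agent.R2.Spec.X1.TD Cfsg.Agent.H129.CycT Cfsg.Agent.H564.NearTwo

/-- the situation -/
structure Sit (p q : ℕ) (S : Type*) [Group S] : Prop where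
  par : Par p q
  om : ∀ x : S, Om p q (orderOf x)
  mm : ∃ x : S, orderOf x = mm q

namespace Sit

variable {p q : ℕ} {S : Type*} [Group S]

theorem congr {T : Type*} [Group T] (h : Sit p q S) (e : S ≃* T) : Sit p q T where
  par := h.par
  om x := by
    have h1 := h.om (e.symm x)
    have h2 : orderOf (e.symm x) = orderOf x := orderOf_injective e.symm.toMonoidHom e.symm.injective x
    rwa [h2] at h1
  mm := by
    obtain ⟨x, hx⟩ := h.mm
    exact ⟨e x, by rw [← hx]; exact orderOf_injective e.toMonoidHom e.injective x⟩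

variable (h : Sit p q S)

include h

/-- an element order is in `Om` -/
theorem ord {a : ℕ} (ha : ∃ x : S, orderOf x = a) : Om p q a := by
  obtain ⟨x, rfl⟩ := ha
  exact h.om x

/-- an element order divisible by a prime divisor of `n` divides `n` -/
theorem dvd_mm {a s : ℕ} (ha : ∃ x : S, orderOf x = a) (hs : s.Prime) (hsa : s ∣ a) (hsn : s ∣ R2.Spec.X1.TD.mm q) :
    a ∣ R2.Spec.X1.TD.mm q := Om.dvd_mm h.par (h.ord ha) hs hsa hsn

/-- no element of order `t s`, `s ∣ n`, `t` not dividing `n` -/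
theorem not_ord {t s : ℕ} (hs : s.Prime) (hsn : s ∣ R2.Spec.X1.TD.mm q) (ht : ¬ t ∣ R2.Spec.X1.TD.mm q) :
    ¬ ∃ x : S, orderOf x = t * s := fun hx =>
  ht ((Dvd.intro _ rfl).trans (h.dvd_mm hx hs (Dvd.intro_left _ rfl) hsn))

theorem not_two {s : ℕ} (hs : s.Prime) (hsn : s ∣ R2.Spec.X1.TD.mm q) : ¬ ∃ x : S, orderOf x = 2 * s :=
  h.not_ord hs hsn fun h2 => by
    have := Nat.odd_iff.1 (mm_odd h.par)
    omega

theorem two_lt {s : ℕ} (hs : s.Prime) (hsn : s ∣ R2.Spec.X1.TD.mm q) : 13 ≤ s := prime_mm_ge h.par hs hsn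

omit h in
theorem adj_dvd {r s : ℕ} (h : Sit p q S) (hsn : s ∣ R2.Spec.X1.TD.mm q) (ha : H94.PG.Adj S s r) : r ∣ R2.Spec.X1.TD.mm q := by
  obtain ⟨hs, hr, hne, x, y, hx, hy, hxy⟩ := ha
  have hco : (orderOf x).Coprime (orderOf y) := by rw [hx, hy]; exact (Nat.coprime_primes hs hr).2 hne
  have h1 := hxy.orderOf_mul_eq_mul_orderOf_of_coprime hco
  rw [hx, hy] at h1
  exact (Dvd.intro_left _ rfl).trans (h.dvd_mm ⟨x * y, h1⟩ hs (Dvd.intro _ rfl) hsn)

theorem not_near {s : ℕ} (hs : s.Prime) (hsn : s ∣ R2.Spec.X1.TD.mm q) : ¬ Near S s := by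
  have h2 : ¬ 2 ∣ R2.Spec.X1.TD.mm q := fun h2 => by
    have := Nat.odd_iff.1 (mm_odd h.par)
    omega
  rintro (rfl | h3 | ⟨r, h3, h4⟩)
  · exact h2 hsn
  · exact h2 (h.adj_dvd hsn h3)
  · exact h2 (h.adj_dvd (h.adj_dvd hsn h3) h4)

section fin

variable [Finite S]

theorem mm_dvd_card : R2.Spec.X1.TD.mm q ∣ Nat.card S := by
  obtain ⟨x, hx⟩ := h.mm
  rw [← hx]
  exact orderOf_dvd_natCard x

theorem prime {t : ℕ} (ht : t.Prime) (hd : t ∣ Nat.card S) : t ∣ R2.Spec.X1.TD.mm q ∨ t ∣ q ∨ t ∣ q ^ 6 - 1 := by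
  have := Fact.mk ht
  obtain ⟨x, hx⟩ := exists_prime_orderOf_dvd_card' t hd
  exact Om.prime h.par ht (h.ord ⟨x, hx⟩)

/-- a prime divisor of `n` -/
theorem exists_prime : ∃ s : ℕ, s.Prime ∧ s ∣ R2.Spec.X1.TD.mm q ∧ 13 ≤ s ∧ s ∣ Nat.card S := by
  have h1 := mm_ge h.par
  obtain ⟨s, hs, hd⟩ := Nat.exists_prime_and_dvd (show R2.Spec.X1.TD.mm q ≠ 1 by omega)
  exact ⟨s, hs, hd, h.two_lt hs hd, hd.trans h.mm_dvd_card⟩

/-- an odd prime divisor of `q² + 1` does not divide `|S|` -/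
theorem sq : ∃ t : ℕ, t.Prime ∧ t ≠ 2 ∧ t ∣ q ^ 2 + 1 ∧ ¬ t ∣ Nat.card S := by
  obtain ⟨t, ht, ht2, hd⟩ := exists_prime_sq h.par
  refine ⟨t, ht, ht2, hd, fun h1 => ?_⟩
  have := Fact.mk ht
  obtain ⟨x, hx⟩ := exists_prime_orderOf_dvd_card' t h1
  exact not_om_sq h.par ht ht2 hd (h.ord ⟨x, hx⟩)

/-- `n` is prime to `M` if its prime divisors do not divide `M` -/
theorem coprime_of {M : ℕ} (hM : ∀ s : ℕ, s.Prime → s ∣ R2.Spec.X1.TD.mm q → ¬ s ∣ M) : Nat.Coprime (R2.Spec.X1.TD.mm q) M :=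
  Nat.Coprime.symm (Nat.coprime_of_dvd fun s hs h1 h2 => hM s hs h2 h1)

/-- **A cyclic subgroup with centralizers.** -/
theorem card_eq {T : Subgroup S} (hc : IsCyclic ↥T) {s : ℕ} (hs : s.Prime) (hsT : s ∣ Nat.card ↥T)
    (hcent : ∀ y ∈ T, orderOf y = s → Subgroup.centralizer {y} ≤ T) (hsn : s ∣ R2.Spec.X1.TD.mm q) :
    Nat.card ↥T = R2.Spec.X1.TD.mm q := by
  apply Nat.dvd_antisymm
  · obtain ⟨t, ht⟩ := hc.exists_generator
    have h1 : orderOf (t : S) = Nat.card ↥T := by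
      rw [Subgroup.orderOf_coe]
      exact orderOf_eq_card_of_forall_mem_zpowers ht
    exact h.dvd_mm ⟨_, h1⟩ hs hsT hsn
  · obtain ⟨x, hx⟩ := h.mm
    have hx0 : orderOf x ≠ 0 := (orderOf_pos x).ne'
    have ho : orderOf (x ^ (orderOf x / s)) = s := orderOf_pow_orderOf_div hx0 (by rw [hx]; exact hsn)
    obtain ⟨g, -, hg⟩ := Cfsg.Agent.H129.CycT.centralizer_conj hc hs hsT hcent ho
    have h1 : g * x * g⁻¹ ∈ T := by
      rw [← hg, Subgroup.mem_centralizer_singleton_iff]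
      exact (Commute.self_pow x _).eq
    have h2 : orderOf (g * x * g⁻¹) = orderOf x := by
      have := orderOf_injective (MulAut.conj g).toMonoidHom (MulAut.conj g).injective x
      simpa using this
    rw [← hx, ← h2, ← Subgroup.orderOf_mk _ h1]
    exact orderOf_dvd_natCard _

/-- **The isolated torus.** -/
theorem exact {N s : ℕ} (hN : CycExact S N) (hs : s.Prime) (hsN : s ∣ N) (hsn : s ∣ R2.Spec.X1.TD.mm q) :
    N = R2.Spec.X1.TD.mm q := by
  obtain ⟨T, h1, rfl, h3⟩ := hN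
  refine h.card_eq h1 hs hsN (fun y hy hyo => (h3 y hy ?_).le) hsn
  rintro rfl
  rw [orderOf_one] at hyo
  exact hs.one_lt.ne hyo

end fin

end Sit

end Cfsg.Agent.R2.Spec.X1.TI
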